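import Mathlib

/-!
# Centralizers in `A₈` have order at most 192 (helper590, row F4 of S2491)
-/

set_option autoImplicit false

namespace Cfsg.Agent.H590.F4.AltC

open Equiv Equiv.Perm Subgroup

/-- an odd permutation commuting with `h` halves the centralizer -/
theorem card_half {h : Perm (Fin 8)} (hh : h ∈ alternatingGroup (Fin 8)) {s : Perm (Fin 8)} (hs : s * h = h * s)
    (hodd : sign s = -1) :
    2 * Nat.card (centralizer ({⟨h, hh⟩} : Set (alternatingGroup (Fin 8)))) ≤ Nat.card (centralizer ({h} : Set (Perm (Fin 8)))) := by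
  classical
  let A := centralizer ({⟨h, hh⟩} : Set (alternatingGroup (Fin 8)))
  let C := centralizer ({h} : Set (Perm (Fin 8)))
  let f : Bool × A → C := fun p => ⟨(if p.1 then s else 1) * ((p.2 : alternatingGroup (Fin 8)) : Perm (Fin 8)), by
    have h1 : ((p.2 : alternatingGroup (Fin 8)) : Perm (Fin 8)) * h = h * ((p.2 : alternatingGroup (Fin 8)) : Perm (Fin 8)) :=
      congrArg Subtype.val (mem_centralizer_singleton_iff.1 p.2.2)
    rw [mem_centralizer_singleton_iff]
    split_ifs
    · rw [mul_assoc, h1, ← mul_assoc, hs, mul_assoc]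
    · rw [one_mul, h1]⟩
  have hf : Function.Injective f := by
    rintro ⟨a, x⟩ ⟨b, y⟩ hxy
    have e : (if a then s else 1) * ((x : alternatingGroup (Fin 8)) : Perm (Fin 8))
        = (if b then s else 1) * ((y : alternatingGroup (Fin 8)) : Perm (Fin 8)) := congrArg Subtype.val hxy
    have sx : sign ((x : alternatingGroup (Fin 8)) : Perm (Fin 8)) = 1 := mem_alternatingGroup.1 (x : alternatingGroup (Fin 8)).2
    have sy : sign ((y : alternatingGroup (Fin 8)) : Perm (Fin 8)) = 1 := mem_alternatingGroup.1 (y : alternatingGroup (Fin 8)).2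
    have e2 := congrArg sign e
    rw [map_mul, map_mul, sx, sy] at e2
    have hab : a = b := by
      cases a <;> cases b <;> simp [hodd] at e2 ⊢
    subst hab
    have e3 := mul_left_cancel e
    rw [Subtype.ext (Subtype.ext e3)]
  have h1 := Nat.card_le_card_of_injective f hf
  rw [Nat.card_prod] at h1
  simpa using h1

/-- the sub-case: the centralizer in `A₈` is bounded by the one in `S₈` -/
theorem card_le {h : Perm (Fin 8)} (hh : h ∈ alternatingGroup (Fin 8)) :
    Nat.card (centralizer ({⟨h, hh⟩} : Set (alternatingGroup (Fin 8)))) ≤ Nat.card (centralizer ({h} : Set (Perm (Fin 8)))) := by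
  refine Nat.card_le_card_of_injective (fun p => ⟨((p : alternatingGroup (Fin 8)) : Perm (Fin 8)), ?_⟩) ?_
  · rw [mem_centralizer_singleton_iff]
    exact congrArg Subtype.val (mem_centralizer_singleton_iff.1 p.2)
  · intro a b hab
    simp only [Subtype.mk.injEq] at hab
    exact Subtype.ext (Subtype.ext hab)

theorem card_rep {h : Perm (Fin 8)} {k p : ℕ} (hc : h.cycleType = Multiset.replicate k p) (hk : k ≠ 0) :
    Nat.card (centralizer ({h} : Set (Perm (Fin 8)))) = Nat.factorial (8 - k * p) * p ^ k * Nat.factorial k := by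
  rw [Equiv.Perm.nat_card_centralizer, hc, Multiset.sum_replicate, Multiset.prod_replicate, Fintype.card_fin]
  have : (Multiset.replicate k p).toFinset = {p} := by
    rw [Multiset.toFinset_replicate, if_neg hk]
  rw [this, Finset.prod_singleton, Multiset.count_replicate_self]
  simp

/-- **centralizers in `A₈`** -/
theorem card_centralizer_le {h : alternatingGroup (Fin 8)} (h1 : h ≠ 1) :
    Nat.card (centralizer ({h} : Set (alternatingGroup (Fin 8)))) ≤ 192 := by
  classical
  -- reduction to prime order
  have ho : orderOf h ≠ 1 := fun e => h1 (orderOf_eq_one_iff.1 e)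
  obtain ⟨p, hp, hpd⟩ := Nat.exists_prime_and_dvd ho
  have hpos : 0 < orderOf h := orderOf_pos h
  set k := h ^ (orderOf h / p) with hk
  have hko : orderOf k = p := orderOf_pow_orderOf_div hpos.ne' hpd
  have hle : centralizer ({h} : Set (alternatingGroup (Fin 8))) ≤ centralizer ({k} : Set (alternatingGroup (Fin 8))) := by
    intro g hg
    rw [mem_centralizer_singleton_iff] at hg ⊢
    exact (Commute.pow_right hg (orderOf h / p))
  refine (card_le_of_le hle).trans ?_
  obtain ⟨σ, hσ⟩ := k
  have hoσ : orderOf σ = p := by rw [← hko, Subgroup.orderOf_mk]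
  obtain ⟨n, hn⟩ := cycleType_prime_order (σ := σ) (by rw [hoσ]; exact hp)
  rw [hoσ] at hn
  have hs : (n + 1) * p ≤ 8 := by
    have h2 := sum_cycleType_le σ
    rw [hn, Multiset.sum_replicate, smul_eq_mul, Fintype.card_fin] at h2
    exact h2
  have hsg : sign σ = 1 := mem_alternatingGroup.1 hσ
  have hcard := card_rep hn (by omega)
  have hp2 := hp.two_le
  have hp8 : p ≤ 8 := by nlinarith
  have hn8 : n ≤ 3 := by nlinarith
  have hswap_fix : ∀ a b : Fin 8, σ a = a → σ b = b → a ≠ b → swap a b * σ = σ * swap a b := by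
    intro a b ha hb hab
    ext x
    simp only [Perm.mul_apply]
    by_cases hxa : x = a
    · subst hxa; rw [ha, swap_apply_left, hb]
    by_cases hxb : x = b
    · subst hxb; rw [hb, swap_apply_right, ha]
    rw [swap_apply_of_ne_of_ne hxa hxb, swap_apply_of_ne_of_ne]
    · intro e; exact hxa (σ.injective (e.trans ha.symm))
    · intro e; exact hxb (σ.injective (e.trans hb.symm))
  by_cases hp2' : p = 2
  · subst hp2'
    have hsq : σ * σ = 1 := by rw [← pow_two, ← hoσ, pow_orderOf_eq_one]
    have hne : σ ≠ 1 := by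
      rintro rfl
      rw [orderOf_one] at hoσ
      norm_num at hoσ
    obtain ⟨i, hi⟩ : ∃ i, σ i ≠ i := by
      by_contra hcon
      push Not at hcon
      exact hne (Equiv.ext hcon)
    have hii : σ (σ i) = i := by
      have := congrArg (fun t : Perm (Fin 8) => t i) hsq
      simpa using this
    have hcomm : swap i (σ i) * σ = σ * swap i (σ i) := by
      have e : σ * swap i (σ i) * σ⁻¹ = swap (σ i) (σ (σ i)) := Equiv.mul_swap_eq_swap_mul σ i (σ i) ▸ by group
      rw [hii, swap_comm] at e
      have e2 := congrArg (fun t => t * σ) e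
      simp only [inv_mul_cancel_right] at e2
      rw [swap_comm i (σ i)]
      exact e2.symm
    have h3 := card_half hσ hcomm (sign_swap (fun h => hi h.symm))
    rw [hcard] at h3
    have hs2 : (n + 1) * 2 ≤ 8 := hs
    have hsg2 := sign_of_cycleType σ
    rw [hn, hsg, Multiset.sum_replicate, Multiset.card_replicate, smul_eq_mul] at hsg2
    interval_cases n
    · exact absurd hsg2 (by decide)
    · refine le_trans (by omega : _ ≤ _) (?_ : (Nat.factorial (8 - (1 + 1) * 2) * 2 ^ (1 + 1) * Nat.factorial (1 + 1)) / 2 ≤ 192)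
      decide
    · exact absurd hsg2 (by decide)
    · refine le_trans (by omega : _ ≤ _) (?_ : (Nat.factorial (8 - (3 + 1) * 2) * 2 ^ (3 + 1) * Nat.factorial (3 + 1)) / 2 ≤ 192)
      decide
  by_cases h30 : p = 3 ∧ n = 0
  · obtain ⟨rfl, rfl⟩ := h30
    have hsup : σ.support.card = 3 := by
      rw [← sum_cycleType, hn]; rfl
    have hfix : 5 ≤ (σ.supportᶜ).card := by
      rw [Finset.card_compl, hsup, Fintype.card_fin]
    obtain ⟨a, ha, b, hb, hab⟩ := Finset.one_lt_card.1 (by omega : 1 < (σ.supportᶜ).card)
    rw [Finset.mem_compl, notMem_support] at ha hb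
    have h3 := card_half hσ (hswap_fix a b ha hb hab) (sign_swap hab)
    rw [hcard] at h3
    have e : Nat.factorial (8 - (0 + 1) * 3) * 3 ^ (0 + 1) * Nat.factorial (0 + 1) = 360 := by decide
    rw [e] at h3
    omega
  refine (card_le hσ).trans ?_
  rw [hcard]
  clear hcard hn
  have h5 : p = 3 ∨ p = 5 ∨ p = 7 := by
    interval_cases p <;> first | omega | (exfalso; revert hp; decide)
  rcases h5 with h | h | h
  · have hn1 : n = 1 := by
      rw [h] at hs
      have : n ≠ 0 := fun h' => h30 ⟨h, h'⟩
      omega
    rw [h, hn1]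
    decide
  · have hn1 : n = 0 := by
      rw [h] at hs
      omega
    rw [h, hn1]
    decide
  · have hn1 : n = 0 := by
      rw [h] at hs
      omega
    rw [h, hn1]
    decide

end Cfsg.Agent.H590.F4.AltC
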