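import Cfsg.Agent.H190.Exc.CycE6
import Cfsg.Agent.H231.QF.Defs

/-!
# S2491, row F4, box C : elements of `²E₆(2)` of order divisible by 13, 17 or 19 (helper590)

`c_thirteen`, `c_seventeen`, `c_nineteen` : the centralizers have at most 51 elements.
-/

set_option autoImplicit false

namespace Cfsg.Agent.H590.F4.CBig

open Cfsg.Lie Subgroup
open Cfsg.Agent.H231.QF
open Cfsg.Agent.H436 (Prim)

universe u

theorem prim_of_order {q e r : ℕ} (hr : r.Prime) (hq : 1 ≤ q) (hrq : ¬ r ∣ q) (h : orderOf ((q : ℕ) : ZMod r) = e) :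
    Prim q e r := by
  refine ⟨hr, fun m => ?_, hrq⟩
  rw [← h, orderOf_dvd_iff_pow_eq_one, ← ZMod.natCast_eq_zero_iff, Nat.cast_sub (Nat.one_le_pow _ _ hq),
    Nat.cast_pow, Nat.cast_one, sub_eq_zero]

theorem prim19 : Prim 2 18 19 := by
  refine prim_of_order (by norm_num) (by norm_num) (by norm_num) ?_
  rw [orderOf_eq_iff (by norm_num)]
  refine ⟨by decide, fun m hm hm0 => ?_⟩
  interval_cases m <;> decide

theorem prim13 : Prim 2 12 13 := by
  refine prim_of_order (by norm_num) (by norm_num) (by norm_num) ?_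
  rw [orderOf_eq_iff (by norm_num)]
  refine ⟨by decide, fun m hm hm0 => ?_⟩
  interval_cases m <;> decide

theorem prim17 : Prim 2 8 17 := by
  refine prim_of_order (by norm_num) (by norm_num) (by norm_num) ?_
  rw [orderOf_eq_iff (by norm_num)]
  refine ⟨by decide, fun m hm hm0 => ?_⟩
  interval_cases m <;> decide

/-- the centralizer of `g` is contained in the centralizer of a power of order `p` -/
theorem exists_part {G : Type*} [Group G] [Finite G] {g : G} {p : ℕ} (hp : p ∣ orderOf g) :
    ∃ y : G, orderOf y = p ∧ (∃ k : ℕ, y = g ^ k) ∧ centralizer ({g} : Set G) ≤ centralizer ({y} : Set G) := by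
  refine ⟨g ^ (orderOf g / p), orderOf_pow_orderOf_div (orderOf_pos g).ne' hp, ⟨_, rfl⟩, fun c hc => ?_⟩
  rw [mem_centralizer_singleton_iff] at hc ⊢
  exact Commute.pow_right hc _

theorem le_of_cd {G : Type*} [Group G] [Finite G] {g : G} {p n : ℕ} (hp : p ∣ orderOf g) (hn : 0 < n)
    (h : Cfsg.Agent.H190.Exc.CD G p n) : Nat.card (centralizer ({g} : Set G)) ≤ n := by
  obtain ⟨y, hy, -, hle⟩ := exists_part hp
  exact Nat.le_of_dvd hn ((card_dvd_of_le hle).trans (h y hy))

variable {F : Type u} [Field F] [Fintype F] (hF : Fintype.card F = 4)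

include hF

theorem c_thirteen (g : KK F) (h : 13 ∣ orderOf g) : Sm g := by
  have : Finite (KK F) := inferInstance
  exact (le_of_cd h (by norm_num) (Cfsg.Agent.H190.Exc.te6_12 Nat.prime_two.isPrimePow
    (hF.trans (by norm_num)) prim13).2).trans (by norm_num)

theorem c_seventeen (g : KK F) (h : 17 ∣ orderOf g) : Sm g := by
  have : Finite (KK F) := inferInstance
  exact (le_of_cd h (by norm_num) (Cfsg.Agent.H190.Exc.te6_8 Nat.prime_two.isPrimePow
    (hF.trans (by norm_num)) prim17).2).trans (by norm_num)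

theorem c_nineteen (g : KK F) (h : 19 ∣ orderOf g) : Sm g := by
  have : Finite (KK F) := inferInstance
  exact (le_of_cd h (by norm_num) (Cfsg.Agent.H190.Exc.te6_18 Nat.prime_two.isPrimePow
    (hF.trans (by norm_num)) prim19).2).trans (by norm_num)

end Cfsg.Agent.H590.F4.CBig
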