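import Cfsg.Agent.H590.F4.AltC
import Cfsg.Agent.H231.QF.Defs
import Cfsg.Agent.H898.TE6Main
import Cfsg.Agent.TwoESix.LeviF

/-!
# S2491, row F4, box C5 : elements of `²E₆(2)` of order divisible by 5 (helper590)
-/

set_option autoImplicit false

namespace Cfsg.Agent.H590.F4.CFive

open Cfsg.Lie Subgroup
open Cfsg.Agent.H231.QF
open Cfsg.Agent.TwoESix.LeviA (Four)
open Cfsg.Agent.TwoESix.LongCard (r0)

universe u

/-- elements of `C(y) ≅ A × B`, `A` abelian -/
theorem card_cent_le {G A B : Type*} [Group G] [Finite G] [Group A] [Group B] {y g : G} {k : ℕ} (hy : y = g ^ k)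
    (e : centralizer ({y} : Set G) ≃* A × B) {n : ℕ} (hg : g ∈ centralizer ({y} : Set G))
    (hB : Nat.card (centralizer ({(e ⟨g, hg⟩).2} : Set B)) ≤ n) :
    Nat.card (centralizer ({g} : Set G)) ≤ Nat.card A * n := by
  have hle : centralizer ({g} : Set G) ≤ centralizer ({y} : Set G) := by
    intro c hc
    rw [mem_centralizer_singleton_iff] at hc ⊢
    rw [hy]
    exact Commute.pow_right hc k
  have : Finite (A × B) := Finite.of_equiv _ e.toEquiv
  have hfA : Finite A := Finite.of_injective (fun a : A => ((a, 1) : A × B)) fun a b h => (Prod.ext_iff.1 h).1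
  have hfB : Finite B := Finite.of_injective (fun a : B => ((1, a) : A × B)) fun a b h => (Prod.ext_iff.1 h).2
  let f : centralizer ({g} : Set G) → A × centralizer ({(e ⟨g, hg⟩).2} : Set B) := fun c =>
    ((e ⟨c, hle c.2⟩).1, ⟨(e ⟨c, hle c.2⟩).2, by
      rw [mem_centralizer_singleton_iff, ← Prod.snd_mul, ← Prod.snd_mul, ← map_mul, ← map_mul]
      congr 2
      exact Subtype.ext (mem_centralizer_singleton_iff.1 c.2)⟩)
  have hf : Function.Injective f := by
    intro a b hab
    have h0 : f a = f b := hab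
    have h1 : (f a).1 = (f b).1 := by rw [h0]
    have h2 : ((f a).2 : B) = ((f b).2 : B) := by rw [h0]
    have h3 : (⟨a, hle a.2⟩ : centralizer ({y} : Set G)) = ⟨b, hle b.2⟩ := e.injective (Prod.ext h1 h2)
    simp only [Subtype.mk.injEq] at h3
    exact Subtype.ext h3
  refine (Nat.card_le_card_of_injective f hf).trans ?_
  rw [Nat.card_prod]
  exact Nat.mul_le_mul_left _ hB

variable {F : Type u} [Field F] [Fintype F] (hF : Fintype.card F = 4) {φ : F →+* F} (hφ : ∀ t, φ t = t ^ 2)

include hF hφ in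
theorem four : Four F φ where
  card := hF
  sq := hφ
  inv t := by
    rw [hφ, hφ, ← pow_mul]
    have := FiniteField.pow_card t
    rwa [hF] at this

include hF hφ

/-- some element of order 5 commutes with a root element -/
theorem exists_five : ∃ x : KK F, orderOf x = 5 ∧ CR x := by
  have hc := Cfsg.Agent.TwoESix.LongCard.card_cent (four hF hφ)
  have h5 : 5 ∣ Nat.card (centralizer ({r0 (four hF hφ)} : Set (KK F))) := by
    rw [hc]; norm_num
  have : Fact (Nat.Prime 5) := ⟨by norm_num⟩
  obtain ⟨x, hx⟩ := exists_prime_orderOf_dvd_card' 5 h5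
  refine ⟨x, by rw [← hx, Subgroup.orderOf_coe], r0 (four hF hφ), ⟨?_, ?_, ?_⟩, mem_centralizer_singleton_iff.1 x.2⟩
  · exact Cfsg.Agent.TwoESix.LeviF.r0_ne (four hF hφ)
  · exact Cfsg.Agent.TwoESix.LeviF.r0_sq (four hF hφ)
  · rw [hc]; norm_num

/-- **C5** -/
theorem c_five (g : KK F) (h : 5 ∣ orderOf g) : CR g ∨ Sm g := by
  have : Finite (KK F) := inferInstance
  obtain ⟨hconj, hcen⟩ := Cfsg.Agent.H898.TE6Main.main hF
  have hpos : 0 < orderOf g := orderOf_pos g
  set y := g ^ (orderOf g / 5) with hy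
  have hyo : orderOf y = 5 := orderOf_pow_orderOf_div hpos.ne' h
  obtain ⟨e⟩ := hcen y hyo
  have hg : g ∈ centralizer ({y} : Set (KK F)) := by
    rw [mem_centralizer_singleton_iff, hy]
    exact Commute.pow_right (Commute.refl g) _
  by_cases h1 : (e ⟨g, hg⟩).2 = 1
  · left
    have h5 : g ^ 5 = 1 := by
      have e1 : (e ⟨g, hg⟩) ^ 5 = 1 := by
        refine Prod.ext ?_ ?_
        · show (e ⟨g, hg⟩).1 ^ 5 = 1
          have := pow_card_eq_one' (x := (e ⟨g, hg⟩).1)
          rwa [Nat.card_eq_fintype_card, Fintype.card_multiplicative, ZMod.card] at this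
        · show (e ⟨g, hg⟩).2 ^ 5 = 1
          rw [h1, one_pow]
      rw [← map_pow, map_eq_one_iff e e.injective] at e1
      exact congrArg Subtype.val e1
    have ho : orderOf g = 5 := by
      have h6 := orderOf_dvd_of_pow_eq_one h5
      rcases (Nat.dvd_prime (by norm_num)).1 h6 with h7 | h7
      · rw [h7] at h; norm_num at h
      · exact h7
    obtain ⟨x, hx, t, ht, hxt⟩ := exists_five hF hφ
    obtain ⟨k, hk⟩ := isConj_iff.1 (hconj x g hx ho)
    refine ⟨k * t * k⁻¹, ?_, ?_⟩
    · obtain ⟨h1, h2, h3⟩ := ht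
      refine ⟨?_, ?_, ?_⟩
      · intro h4
        apply h1
        calc t = k⁻¹ * (k * t * k⁻¹) * k := by group
          _ = 1 := by rw [h4]; group
      · calc k * t * k⁻¹ * (k * t * k⁻¹) = k * (t * t) * k⁻¹ := by group
          _ = 1 := by rw [h2]; group
      · have e2 : Nat.card (centralizer ({k * t * k⁻¹} : Set (KK F))) = Nat.card (centralizer ({t} : Set (KK F))) := by
          refine Nat.card_congr ⟨fun c => ⟨k⁻¹ * c * k, ?_⟩, fun c => ⟨k * c * k⁻¹, ?_⟩, fun c => ?_, fun c => ?_⟩
          · have := mem_centralizer_singleton_iff.1 c.2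
            rw [mem_centralizer_singleton_iff]
            calc k⁻¹ * (c : KK F) * k * t = k⁻¹ * ((c : KK F) * (k * t * k⁻¹)) * k := by group
              _ = k⁻¹ * ((k * t * k⁻¹) * (c : KK F)) * k := by rw [this]
              _ = t * (k⁻¹ * (c : KK F) * k) := by group
          · have := mem_centralizer_singleton_iff.1 c.2
            rw [mem_centralizer_singleton_iff]
            calc k * (c : KK F) * k⁻¹ * (k * t * k⁻¹) = k * ((c : KK F) * t) * k⁻¹ := by group
              _ = k * (t * (c : KK F)) * k⁻¹ := by rw [this]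
              _ = k * t * k⁻¹ * (k * (c : KK F) * k⁻¹) := by group
          · exact Subtype.ext (by group)
          · exact Subtype.ext (by group)
        rw [e2]; exact h3
    · rw [← hk]
      calc k * x * k⁻¹ * (k * t * k⁻¹) = k * (x * t) * k⁻¹ := by group
        _ = k * t * k⁻¹ * (k * x * k⁻¹) := by rw [hxt]; group
  · right
    have h2 := card_cent_le hy e hg (AltC.card_centralizer_le h1)
    rw [Nat.card_eq_fintype_card (α := Multiplicative (ZMod 5)), Fintype.card_multiplicative, ZMod.card] at h2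
    unfold Sm
    omega

end Cfsg.Agent.H590.F4.CFive
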