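import Cfsg.Agent.H590.F4.Layer
import Cfsg.Agent.H584.F4.X21

/-!
# P4 from its parts (helper590, row F4 of S2491)

`kf_of` : the `K`-side facts `KF` from irreducibility (`irr`), the class cover (`cover`) and the rank lists (`rank`);
`p4_parts` : all elements over `P₄ ∖ V₄` are commutators, given in addition the complement `D` and the pairs `BF`.
-/

set_option autoImplicit false

namespace Cfsg.Agent.H590.F4

open Cfsg.Lie Subgroup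
open Cfsg.Agent.H51.Mult (PCE)
open Cfsg.Agent.H777.Ore (IsC)
open Cfsg.Agent.H231.QF

universe u v

section

variable {F : Type u} [Field F] [Fintype F] (hF : Fintype.card F = 4) {φ : F →+* F} (hφ : ∀ t, φ t = t ^ 2)

include hF hφ

/-- fixed point free on `V₄` implies fixed point free on `V₄/V2` -/
theorem ff_layer {x : KK F} (hxP : x ∈ P φ j4) (hx : ∀ v ∈ V φ j4, x * v * x⁻¹ = v → v = 1) :
    ∀ u ∈ V φ j4, x * u * x⁻¹ * u⁻¹ ∈ V2 φ → u ∈ V2 φ := by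
  obtain ⟨hle, hnorm, hcen, hcom, -⟩ := Lay.layer hF hφ
  have : Finite (KK F) := inferInstance
  intro u hu hc
  let f : V2 φ → V2 φ := fun d => ⟨x * d * x⁻¹ * (d : KK F)⁻¹, mul_mem (hnorm x hxP d d.2) (inv_mem d.2)⟩
  have hf : Function.Injective f := by
    intro a b hab
    have e1 : x * (a : KK F) * x⁻¹ * (a : KK F)⁻¹ = x * (b : KK F) * x⁻¹ * (b : KK F)⁻¹ := congrArg Subtype.val hab
    have hab' : (a : KK F) * b = b * a := hcen _ (hle a.2) _ b.2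
    have e2 : x * ((b : KK F)⁻¹ * a) * x⁻¹ = (b : KK F)⁻¹ * a := by
      have e3 : x * (a : KK F) * x⁻¹ = x * (b : KK F) * x⁻¹ * (b : KK F)⁻¹ * a := by
        rw [← e1]; group
      calc x * ((b : KK F)⁻¹ * a) * x⁻¹ = (x * b * x⁻¹)⁻¹ * (x * a * x⁻¹) := by group
        _ = (x * b * x⁻¹)⁻¹ * (x * (b : KK F) * x⁻¹ * (b : KK F)⁻¹ * a) := by rw [e3]
        _ = _ := by group
    have e4 := hx _ (hle (mul_mem (inv_mem b.2) a.2)) e2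
    exact (Subtype.ext (inv_mul_eq_one.1 e4)).symm
  obtain ⟨d, hd⟩ := Finite.surjective_of_injective hf ⟨(x * u * x⁻¹ * u⁻¹)⁻¹, inv_mem hc⟩
  have hd' : x * (d : KK F) * x⁻¹ * (d : KK F)⁻¹ = (x * u * x⁻¹ * u⁻¹)⁻¹ := congrArg Subtype.val hd
  have e1 : x * (u * d) * x⁻¹ = u * d := by
    have e2 : x * (d : KK F) * x⁻¹ = (x * u * x⁻¹ * u⁻¹)⁻¹ * d := by rw [← hd']; group
    have e3 : u * (x * u * x⁻¹ * u⁻¹)⁻¹ = (x * u * x⁻¹ * u⁻¹)⁻¹ * u := hcen u hu _ (inv_mem hc)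
    calc x * (u * d) * x⁻¹ = (x * u * x⁻¹ * u⁻¹) * u * (x * d * x⁻¹) := by group
      _ = (x * u * x⁻¹ * u⁻¹) * (u * (x * u * x⁻¹ * u⁻¹)⁻¹) * d := by rw [e2]; group
      _ = u * d := by rw [e3]; group
  have e2 := hx _ (mul_mem hu (hle d.2)) e1
  have e3 : u = (d : KK F)⁻¹ := eq_inv_of_mul_eq_one_left e2
  rw [e3]
  exact inv_mem d.2

theorem kf_of {x : KK F} (hxL : x ∈ Lv φ j4) (hx : ∀ v ∈ V φ j4, x * v * x⁻¹ = v → v = 1)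
    (irr : ∀ M : Subgroup (KK F), V2 φ ≤ M → M ≤ V φ j4 → (∀ g ∈ P φ j4, ∀ m ∈ M, g * m * g⁻¹ ∈ M) →
      M = V2 φ ∨ M = V φ j4)
    (cover : ∀ l ∈ Lv φ j4, l ≠ 1 → ∃ a ∈ Lv φ j4, ∃ b ∈ Lv φ j4, l = a * x * a⁻¹ * (b * x⁻¹ * b⁻¹))
    (rank : ∀ l ∈ Lv φ j4, l ≠ 1 → ∃ L : List (KK F), L.length ≤ 5 ∧
      (∀ t ∈ L, ∃ k ∈ Lv φ j4, t = k * l * k⁻¹ ∨ t = k * l⁻¹ * k⁻¹) ∧
      ∃ k ∈ Lv φ j4, L.prod = k * x * k⁻¹) : KF φ x := by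
  obtain ⟨hle, hnorm, hcen, hcom, hidx⟩ := Lay.layer hF hφ
  have hV := (Lay.pdec hF hφ).1
  refine ⟨hle, hnorm, hcen, hcom, hidx, irr, hxL, ff_layer hF hφ (Lv_le hxL) hx, ?_, cover, ?_⟩
  · intro d hd h
    refine hx d (hle hd) ?_
    rw [h]; group
  · intro l hl hl1
    obtain ⟨L, h1, h2, k, hk, e⟩ := rank l hl hl1
    refine ⟨L, h1, h2, ff_layer hF hφ ?_ ?_⟩
    · rw [e]
      exact mul_mem (mul_mem (Lv_le hk) (Lv_le hxL)) (inv_mem (Lv_le hk))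
    · intro v hv h
      rw [e] at h
      have h3 := hx (k⁻¹ * v * k) (by simpa using hV k⁻¹ (inv_mem (Lv_le hk)) v hv) (by
        calc x * (k⁻¹ * v * k) * x⁻¹ = k⁻¹ * (k * x * k⁻¹ * v * (k * x * k⁻¹)⁻¹) * k := by group
          _ = _ := by rw [h])
      calc v = k * (k⁻¹ * v * k) * k⁻¹ := by group
        _ = 1 := by rw [h3]; group

/-- **P4 from its parts** -/
theorem p4_parts
    (irr : ∀ M : Subgroup (KK F), V2 φ ≤ M → M ≤ V φ j4 → (∀ g ∈ P φ j4, ∀ m ∈ M, g * m * g⁻¹ ∈ M) →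
      M = V2 φ ∨ M = V φ j4)
    (cover : ∀ x ∈ Lv φ j4, orderOf x = 21 → ∀ l ∈ Lv φ j4, l ≠ 1 →
      ∃ a ∈ Lv φ j4, ∃ b ∈ Lv φ j4, l = a * x * a⁻¹ * (b * x⁻¹ * b⁻¹))
    (rank : ∀ x ∈ Lv φ j4, orderOf x = 21 → ∀ l ∈ Lv φ j4, l ≠ 1 → ∃ L : List (KK F), L.length ≤ 5 ∧
      (∀ t ∈ L, ∃ k ∈ Lv φ j4, t = k * l * k⁻¹ ∨ t = k * l⁻¹ * k⁻¹) ∧
      ∃ k ∈ Lv φ j4, L.prod = k * x * k⁻¹)
    (hDB : ∀ {L' : Type v} [Group L'] [Finite L'] {ρ : L' →* KK F}, PCE ρ → Nat.card ρ.ker = 4 →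
      ∃ D, DF φ ρ D ∧ BF φ ρ D)
    {L : Type v} [Group L] [Finite L] {π : L →* KK F} (hπ : PCE π) (hk : Nat.card π.ker = 12) (g : L)
    (h : π g ∈ P φ j4) (h1 : π g ∉ V φ j4) : IsC g := by
  obtain ⟨x, hxL, hx21, hxV, -, -, hx3⟩ := Cfsg.Agent.H584.F4.X21.exists_x21.{u, v} hF hφ
  have hK := kf_of hF hφ hxL hxV irr (cover x hxL hx21) (rank x hxL hx21)
  refine p4_of (Lay.pdec hF hφ).1 (Lay.pdec hF hφ).2 hπ hk hK hDB ?_ g h h1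
  intro y ζ hy hζ h3
  exact hx3 L π hπ (by rw [hk]) y hy ζ hζ h3

end

end Cfsg.Agent.H590.F4
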