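import Cfsg.Agent.H486.F4.KSeven
import Cfsg.Agent.H240.F4.Card
import Cfsg.Agent.H258.QF.Class

/-!
# S2491, row F4, K1 : the root elements of `²E₆(2)` are the conjugates of the elements of `X_θ` (helper590)
-/

set_option autoImplicit false

namespace Cfsg.Agent.H590.F4.ReIff

open CoxeterSystem Cfsg.Agent.ChevalleyStructure.CoxeterGeom Cfsg.Agent.Tits.Roots Cfsg.Agent.Tits.Core
  Cfsg.Agent.Nodes Cfsg.Agent.Nodes.Reps Cfsg.Agent.Nodes.BNOf Cfsg.Agent.Nodes.RGDLib Cfsg.Agent.Nodes.Bruhat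
  Cfsg.Agent.Nodes.OppDec Cfsg.Agent.Nodes.LeviDec Cfsg.Agent.Nodes.StabComb
open Cfsg.Lie Subgroup
open Cfsg.Agent.H231.QF
open scoped Pointwise

universe u

/-- an element commuting with a Sylow `p`-subgroup and of `p`-power order lies in it -/
theorem mem_sylow {G : Type*} [Group G] {p : ℕ} [Fact p.Prime] (S : Sylow p G) {t : G}
    (ht : IsPGroup p (zpowers t)) (hc : ∀ s ∈ (S : Subgroup G), s * t = t * s) : t ∈ (S : Subgroup G) := by
  have h1 : IsPGroup p ((S : Subgroup G) ⊔ zpowers t : Subgroup G) := by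
    refine IsPGroup.to_sup_of_normal_right' S.isPGroup' ht ?_
    intro s hs
    rw [Subgroup.mem_normalizer_iff]
    have h2 : ∀ x ∈ zpowers t, s * x * s⁻¹ = x := by
      rintro x ⟨k, rfl⟩
      have h3 : Commute s t := hc s hs
      have h4 : s * t ^ k = t ^ k * s := (h3.zpow_right k).eq
      show s * t ^ k * s⁻¹ = t ^ k
      rw [h4]; group
    intro x
    constructor
    · intro hx; rw [h2 x hx]; exact hx
    · intro hx
      have h5 := h2 _ hx
      have h6 : s * x * s⁻¹ = x := by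
        have h7 : s * (s * x * s⁻¹) * s⁻¹ = s * x * s⁻¹ := h5
        have h8 : s * x * s⁻¹ = x := by
          have h9 : s⁻¹ * (s * (s * x * s⁻¹) * s⁻¹) * s = s⁻¹ * (s * x * s⁻¹) * s := by rw [h7]
          calc s * x * s⁻¹ = s⁻¹ * (s * (s * x * s⁻¹) * s⁻¹) * s := by group
            _ = s⁻¹ * (s * x * s⁻¹) * s := h9
            _ = x := by group
        exact h8
      rwa [h6] at hx
  have h2 := S.is_maximal' h1 le_sup_left
  rw [← h2]
  exact mem_sup_right (mem_zpowers t)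

theorem card_cent_conj {G : Type*} [Group G] (x t : G) :
    Nat.card (centralizer ({x * t * x⁻¹} : Set G)) = Nat.card (centralizer ({t} : Set G)) := by
  refine Nat.card_congr ⟨fun c => ⟨x⁻¹ * c * x, ?_⟩, fun c => ⟨x * c * x⁻¹, ?_⟩, fun c => ?_, fun c => ?_⟩
  · have := mem_centralizer_singleton_iff.1 c.2
    rw [mem_centralizer_singleton_iff]
    calc x⁻¹ * (c : G) * x * t = x⁻¹ * ((c : G) * (x * t * x⁻¹)) * x := by group
      _ = x⁻¹ * ((x * t * x⁻¹) * (c : G)) * x := by rw [this]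
      _ = t * (x⁻¹ * (c : G) * x) := by group
  · have := mem_centralizer_singleton_iff.1 c.2
    rw [mem_centralizer_singleton_iff]
    calc x * (c : G) * x⁻¹ * (x * t * x⁻¹) = x * ((c : G) * t) * x⁻¹ := by group
      _ = x * (t * (c : G)) * x⁻¹ := by rw [this]
      _ = x * t * x⁻¹ * (x * (c : G) * x⁻¹) := by group
  · exact Subtype.ext (by group)
  · exact Subtype.ext (by group)

variable {F : Type u} [Field F] [Fintype F] (hF : Fintype.card F = 4) {φ : F →+* F} (hφ : ∀ t, φ t = t ^ 2)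

include hF hφ

/-- **K1** -/
theorem re_iff (t : KK F) : RE t ↔ t ≠ 1 ∧ ∃ x : KK F, x * t * x⁻¹ ∈ X φ th := by
  have hfin : Finite (KK F) := inferInstance
  have h2p : Fact (Nat.Prime 2) := ⟨Nat.prime_two⟩
  have hcU := Cfsg.Agent.H240.F4.card_U hF hφ
  have hUP : RGD.Sup (X φ) (RGD.Pos cs RGDTwE6.isCartan) ≤ P φ j1 := le_trans RGD.U_le_B B_le_PJ
  constructor
  · rintro ⟨h1, h2, h3⟩
    refine ⟨h1, ?_⟩
    have hfac : (Nat.card (KK F)).factorization 2 = 36 := by
      rw [Cfsg.Agent.H258.QF.card_KK hF, Nat.factorization_def _ Nat.prime_two, padicValNat_def (by norm_num)]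
      rw [multiplicity_eq_of_dvd_of_not_dvd] <;> norm_num
    obtain ⟨S, hS⟩ := Sylow.exists_subgroup_card_pow_prime 2 h3
    have hS' : Nat.card ↥(S.map (centralizer ({t} : Set (KK F))).subtype) = 2 ^ 36 := by
      rw [card_map_of_injective (Subgroup.subtype_injective _), hS]
    let P1 : Sylow 2 (KK F) := Sylow.ofCard _ (by rw [hS', hfac])
    let P2 : Sylow 2 (KK F) := Sylow.ofCard (RGD.Sup (X φ) (RGD.Pos cs RGDTwE6.isCartan)) (by rw [hcU, hfac])
    have hc : ∀ s ∈ (P1 : Subgroup (KK F)), s * t = t * s := by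
      intro s hs
      obtain ⟨s', -, rfl⟩ : s ∈ S.map (centralizer ({t} : Set (KK F))).subtype := hs
      exact mem_centralizer_singleton_iff.1 s'.2
    have ht2 : IsPGroup 2 (zpowers t) := by
      refine IsPGroup.of_card (n := 1) ?_
      rw [Nat.card_zpowers, pow_one]
      exact orderOf_eq_prime (by rw [pow_two]; exact h2) h1
    have htS := mem_sylow P1 ht2 hc
    obtain ⟨g, hg⟩ := MulAction.exists_smul_eq (KK F) P1 P2
    have hg' : ∀ u, u ∈ RGD.Sup (X φ) (RGD.Pos cs RGDTwE6.isCartan) ↔ g⁻¹ * u * g ∈ (P1 : Subgroup (KK F)) := by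
      intro u
      have e1 : u ∈ RGD.Sup (X φ) (RGD.Pos cs RGDTwE6.isCartan) ↔ u ∈ (P2 : Subgroup (KK F)) := Iff.rfl
      rw [e1, ← hg]
      have e2 : ((g • P1 : Sylow 2 (KK F)) : Subgroup (KK F)) = MulAut.conj g • (P1 : Subgroup (KK F)) := rfl
      rw [e2, Subgroup.mem_pointwise_smul_iff_inv_smul_mem]
      have e3 : (MulAut.conj g)⁻¹ • u = g⁻¹ * u * g := by
        rw [← map_inv, MulAut.smul_def, MulAut.conj_apply, inv_inv]
      rw [e3]
    refine ⟨g, ?_⟩
    obtain ⟨z, hz⟩ : ∃ z, z = g * t * g⁻¹ := ⟨_, rfl⟩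
    rw [← hz]
    have hzU : z ∈ RGD.Sup (X φ) (RGD.Pos cs RGDTwE6.isCartan) := by
      rw [hg', hz]
      have e4 : g⁻¹ * (g * t * g⁻¹) * g = t := by group
      rw [e4]
      exact htS
    have hzc : ∀ v ∈ V φ j1, z * v = v * z := by
      intro v hv
      have h5 := hc _ ((hg' v).1 (VJ_le_U j1 hv))
      calc z * v = g * (t * (g⁻¹ * v * g)) * g⁻¹ := by rw [hz]; group
        _ = g * ((g⁻¹ * v * g) * t) * g⁻¹ := by rw [h5]
        _ = v * z := by rw [hz]; group
    obtain ⟨k1, k2, k3, k4⟩ := Cfsg.Agent.H594.QF.V1_struct hF hφ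
    have hzV : z ∈ V φ j1 := by
      by_contra hn
      have h6 := Cfsg.Agent.H486.F4.rank_P hF hφ (hUP hzU) hn
      have h7 : Nat.card {x : KK F // x ∈ V φ j1 ∧ z * x * z⁻¹ * x⁻¹ ∈ X φ th} = Nat.card (V φ j1) := by
        refine Nat.card_congr (Equiv.subtypeEquivRight fun x => ?_)
        refine ⟨fun h => h.1, fun h => ⟨h, ?_⟩⟩
        have h8 : z * x * z⁻¹ * x⁻¹ = 1 := by rw [hzc x h]; group
        rw [h8]
        exact one_mem _
      rw [h7, k4] at h6
      norm_num at h6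
    exact k3 z hzV hzc
  · rintro ⟨h1, x, hx⟩
    have hx1 : x * t * x⁻¹ ≠ 1 := by
      intro h2
      apply h1
      calc t = x⁻¹ * (x * t * x⁻¹) * x := by group
        _ = 1 := by rw [h2]; group
    refine ⟨h1, ?_, ?_⟩
    · have h3 : (⟨x * t * x⁻¹, hx⟩ : X φ th) ^ Nat.card (X φ th) = 1 := pow_card_eq_one'
      rw [Cfsg.Agent.H594.QF.card_X_th hF hφ] at h3
      have h4 : (x * t * x⁻¹) ^ 2 = 1 := congrArg Subtype.val h3
      calc t * t = x⁻¹ * (x * t * x⁻¹) ^ 2 * x := by rw [pow_two]; group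
        _ = 1 := by rw [h4]; group
    · rw [← card_cent_conj x t, Cfsg.Agent.H594.QF.centralizer_eq hF hφ hx hx1, ← hcU]
      exact card_dvd_of_le hUP

end Cfsg.Agent.H590.F4.ReIff
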